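import Cfsg.Agent.SylAn.A

set_option autoImplicit false
set_option linter.unusedVariables false
set_option linter.unusedSectionVars false
set_option linter.unusedSimpArgs false
set_option linter.style.haveILetI false

namespace Cfsg.Agent.SylAn
open Equiv Equiv.Perm

variable {α : Type*} [Fintype α] [DecidableEq α] {Q S₁ S₂ : Subgroup (Perm α)} {z : Perm α}

structure Dc (Q S₁ S₂ : Subgroup (Perm α)) : Prop where
  le1 : ∀ x ∈ S₁, x ∈ Q ∧ sign x = 1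
  le2 : ∀ x ∈ S₂, x ∈ Q ∧ sign x = 1
  cm : ∀ a ∈ S₁, ∀ b ∈ S₂, a * b = b * a
  inf : ∀ x ∈ S₁, x ∈ S₂ → x = 1
  dec : ∀ x ∈ Q, sign x = 1 → ∃ a ∈ S₁, ∃ b ∈ S₂, x = a * b

theorem Dc.symm (D : Dc Q S₁ S₂) : Dc Q S₂ S₁ :=
  ⟨D.le2, D.le1, fun a ha b hb => (D.cm b hb a ha).symm, fun x h1 h2 => D.inf x h2 h1,
    fun x h1 h2 => by
      obtain ⟨a, ha, b, hb, e⟩ := D.dec x h1 h2
      exact ⟨b, hb, a, ha, by rw [e, D.cm a ha b hb]⟩⟩

theorem Dc.cm' (D : Dc Q S₁ S₂) {a b : Perm α} (ha : a ∈ S₁) (hb : b ∈ S₂) (u : α) :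
    a (b u) = b (a u) := by
  rw [← Perm.mul_apply, D.cm a ha b hb]; rfl

def Cen (Q : Subgroup (Perm α)) (x : Perm α) : Prop :=
  x ∈ Q ∧ sign x = 1 ∧ ∀ g ∈ Q, sign g = 1 → x * g = g * x

theorem Dc.exists_cen (hQ : IsPGroup 2 Q) (D : Dc Q S₁ S₂) (h : S₁ ≠ ⊥) :
    ∃ x ∈ S₁, x ≠ 1 ∧ Cen Q x := by
  haveI := (Subgroup.nontrivial_iff_ne_bot S₁).2 h
  have hp : IsPGroup 2 S₁ := hQ.to_le (fun x hx => (D.le1 x hx).1)
  obtain ⟨c, hc, hc1⟩ := (Subgroup.bot_or_exists_ne_one _).resolve_left hp.bot_lt_center.ne'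
  refine ⟨c, c.2, fun h => hc1 (Subtype.ext h), (D.le1 c c.2).1, (D.le1 c c.2).2, fun g h1 h2 => ?_⟩
  obtain ⟨a, ha, b, hb, rfl⟩ := D.dec g h1 h2
  have : a * c = c * a := congrArg Subtype.val (Subgroup.mem_center_iff.1 hc ⟨a, ha⟩)
  rw [← mul_assoc, ← this, mul_assoc, D.cm c c.2 b hb, mul_assoc]

theorem Dc.center (hQ : IsPGroup 2 Q) (D : Dc Q S₁ S₂) (h1 : S₁ ≠ ⊥) (h2 : S₂ ≠ ⊥)
    (h : ∀ x y, Cen Q x → Cen Q y → x ≠ 1 → y ≠ 1 → x = y) : False := by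
  obtain ⟨x, hx, x1, xc⟩ := D.exists_cen hQ h1
  obtain ⟨y, hy, y1, yc⟩ := D.symm.exists_cen hQ h2
  exact x1 (D.inf x hx (h x y xc yc x1 y1 ▸ hy))

theorem St.sw2 (S : St Q z) {a b : α} (ha : z a ≠ a) (hb : z b ≠ b) :
    swap a (z a) * swap b (z b) ∈ Q ∧ sign (swap a (z a) * swap b (z b)) = 1 :=
  ⟨mul_mem (S.sw a) (S.sw b), by rw [Perm.sign_mul, sign_swap ha.symm, sign_swap hb.symm]; simp⟩

theorem St.even_of (S : St Q z) {a : α} (ha : z a ≠ a) {q : Perm α} (hq : q ∈ Q) :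
    ∃ g ∈ Q, sign g = 1 ∧ (g = q ∨ g = q * swap a (z a)) := by
  rcases Int.units_eq_one_or (sign q) with h | h
  · exact ⟨q, hq, h, Or.inl rfl⟩
  · exact ⟨_, mul_mem hq (S.sw a), by rw [Perm.sign_mul, h, sign_swap ha.symm]; simp, Or.inr rfl⟩

theorem St.even_orb (S : St Q z) {a b : α} (ha : z a ≠ a) (h : Orb Q a b) :
    ∃ g ∈ Q, sign g = 1 ∧ (g a = b ∨ g a = z b) := by
  obtain ⟨q, hq, rfl⟩ := h
  obtain ⟨g, hg, h1, rfl | rfl⟩ := S.even_of ha hq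
  · exact ⟨g, hg, h1, Or.inl rfl⟩
  · exact ⟨_, hg, h1, Or.inr (by simp [S.cm q hq])⟩

theorem St.fix_of (S : St Q z) {x : Perm α} (hx : x ∈ Q) {b c : α} (h : c = b ∨ c = z b)
    (hc : x c = c) : x b = b := by
  rcases h with rfl | rfl
  · exact hc
  · rw [S.cm x hx] at hc; exact z.injective hc

theorem St.cen_unif (S : St Q z) {x : Perm α} (hx : Cen Q x) {a b : α} (ha : z a ≠ a)
    (h : Orb Q a b) (h1 : x a = a) : x b = b := by
  obtain ⟨g, hg, hs, e⟩ := S.even_orb ha h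
  refine S.fix_of hx.1 e ?_
  rw [← Perm.mul_apply, hx.2.2 g hg hs, Perm.mul_apply, h1]

theorem St.t_fix (S : St Q z) {a k c : α} (h1 : c ≠ a) (h2 : c ≠ z a) (h3 : c ≠ k) (h4 : c ≠ z k) :
    (swap a (z a) * swap k (z k)) c = c := by
  rw [Perm.mul_apply, swap_apply_of_ne_of_ne h3 h4, swap_apply_of_ne_of_ne h1 h2]

theorem St.t_self (S : St Q z) {a k : α} (h3 : a ≠ k) (h4 : a ≠ z k) :
    (swap a (z a) * swap k (z k)) a = z a := by
  rw [Perm.mul_apply, swap_apply_of_ne_of_ne h3 h4, swap_apply_left]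

theorem St.cen_blk (S : St Q z) {x : Perm α} (hx : Cen Q x) {a k : α} (ha : z a ≠ a)
    (hk : z k ≠ k) (h1 : a ≠ k) (h2 : a ≠ z k) (h3 : x a ≠ k) (h4 : x a ≠ z k) :
    x a = a ∨ x a = z a := by
  by_contra hn
  push Not at hn
  have e := congrArg (fun g : Perm α => g a) (hx.2.2 _ (S.sw2 ha hk).1 (S.sw2 ha hk).2)
  rw [Perm.mul_apply x, S.t_self h1 h2, Perm.mul_apply _ x, S.t_fix hn.1 hn.2 h3 h4] at e
  exact ha (x.injective e)

theorem St.triv (S : St Q z) {u : α} (hu : z u ≠ u) {t : Perm α} (ht : t ∈ Q) (hs : sign t = 1)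
    (h : ∀ a, a ≠ u → a ≠ z u → t a = a) (hu' : ¬ Big Q z u) : t = 1 := by
  have : t u = u ∨ t u = z u := by
    by_contra hn; push Not at hn; exact hu' ⟨t, ht, hn⟩
  rcases this with h1 | h1
  · ext a
    by_cases a1 : a = u
    · rw [a1, h1]; rfl
    by_cases a2 : a = z u
    · rw [a2, S.cm t ht, h1]; rfl
    exact h a a1 a2
  · have : t = swap u (z u) := by
      ext a
      by_cases a1 : a = u
      · rw [a1, h1]; simp
      by_cases a2 : a = z u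
      · rw [a2, S.cm t ht, h1, S.z2]; simp
      rw [h a a1 a2, swap_apply_of_ne_of_ne a1 a2]
    rw [this, sign_swap hu.symm] at hs
    simp at hs

theorem St.bigz (S : St Q z) {a : α} : Big Q z (z a) ↔ Big Q z a :=
  ⟨fun h => S.big_orb h (S.orbz a).symm, fun h => S.big_orb h (S.orbz a)⟩

/-- Case I -/
theorem St.caseI (S : St Q z) (D : Dc Q S₁ S₂) (h1 : S₁ ≠ ⊥) (h2 : S₂ ≠ ⊥) {u : α} (hu : z u ≠ u)
    (hu' : ¬ Big Q z u) (hr : ∀ a, ¬ Big Q z a → a ≠ u → a ≠ z u → z a = a)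
    (ht : ∀ a b, Big Q z a → Big Q z b → Orb Q a b) : False := by
  have hu'' : ¬ Big Q z (z u) := by rwa [S.bigz]
  have tr : ∀ t ∈ Q, sign t = 1 → (∀ a, Big Q z a → t a = a) → t = 1 := by
    intro t ht hs h
    refine S.triv hu ht hs (fun a a1 a2 => ?_) hu'
    by_cases hb : Big Q z a
    · exact h a hb
    · exact S.fix (hr a hb a1 a2) ht
  have key : ∀ x, Cen Q x → x ≠ 1 → ∀ a, Big Q z a → x a = z a := by
    intro x hx x1 a ha
    have hxa := S.big_inv x hx.1 a ha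
    refine (S.cen_blk hx (S.big_ne ha) hu (by rintro rfl; exact hu' ha) (by rintro rfl; exact hu'' ha)
      (fun h => hu' (h ▸ hxa)) (fun h => hu'' (h ▸ hxa))).resolve_left fun h => x1 ?_
    exact tr x hx.1 hx.2.1 fun b hb => S.cen_unif hx (S.big_ne ha) (ht a b ha hb) h
  refine D.center S.pg h1 h2 fun x y hx hy x1 y1 => ?_
  have := tr (x⁻¹ * y) (mul_mem (inv_mem hx.1) hy.1) (by simp [hx.2.1, hy.2.1]) fun a ha => by
    rw [Perm.mul_apply, key y hy y1 a ha, ← key x hx x1 a ha]; simp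
  exact inv_mul_eq_one.1 this

/-- Case II, one orbit -/
theorem St.caseII (S : St Q z) (D : Dc Q S₁ S₂) (h1 : S₁ ≠ ⊥) (h2 : S₂ ≠ ⊥)
    (hr : ∀ a, ¬ Big Q z a → z a = a)
    (h5 : ∀ l : List α, l.length ≤ 4 → ∃ k, Big Q z k ∧ k ∉ l)
    (ht : ∀ a b, Big Q z a → Big Q z b → Orb Q a b) : False := by
  have key : ∀ x, Cen Q x → x ≠ 1 → x = z := by
    intro x hx x1
    ext a
    by_cases ha : Big Q z a
    swap
    · rw [S.fix (hr a ha) hx.1, hr a ha]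
    obtain ⟨k, hk, hk'⟩ := h5 [a, z a, x a, z (x a)] (by simp)
    simp only [List.mem_cons, List.not_mem_nil, or_false, not_or] at hk'
    obtain ⟨k1, k2, k3, k4⟩ := hk'
    refine (S.cen_blk hx (S.big_ne ha) (S.big_ne hk) (Ne.symm k1)
      (fun h => k2 (by rw [h, S.z2])) (Ne.symm k3)
      (fun h => k4 (by rw [h, S.z2]))).resolve_left fun h => x1 ?_
    ext b
    by_cases hb : Big Q z b
    · exact S.cen_unif hx (S.big_ne ha) (ht a b ha hb) h
    · exact S.fix (hr b hb) hx.1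
  exact D.center S.pg h1 h2 fun x y hx hy x1 y1 => (key x hx x1).trans (key y hy y1).symm

def Fx (S : Subgroup (Perm α)) (z : Perm α) (a : α) : Prop := ∀ s ∈ S, s a = a ∨ s a = z a

theorem St.dich_aux (S : St Q z) (D : Dc Q S₁ S₂) {a k : α} (ha : z a ≠ a) (hk : ¬ Orb Q a k)
    {u v : Perm α} (hu : u ∈ S₁) (hv : v ∈ S₂) (ht : swap a (z a) * swap k (z k) = u * v)
    (ua : u a = a) (va : v a = z a) {s₁ s₂ : Perm α} (h₁ : s₁ ∈ S₁) (h₂ : s₂ ∈ S₂)
    (m₁ : s₁ a ≠ a ∧ s₁ a ≠ z a) (m₂ : s₂ a ≠ a ∧ s₂ a ≠ z a) : False := by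
  have uQ := (D.le1 u hu).1
  have fx : ∀ c, Orb Q a c → c ≠ a → c ≠ z a → u (v c) = c := by
    intro c hc c1 c2
    rw [← Perm.mul_apply, ← ht]
    exact S.t_fix c1 c2 (by rintro rfl; exact hk hc) (by
      rintro rfl; exact hk (hc.trans (S.orbz k).symm))
  have zne : ∀ q ∈ Q, z (q a) ≠ q a := fun q hq h => ha (q.injective (by rw [S.cm q hq, h]))
  have j1 : ∀ s ∈ S₁, s a ≠ a → s a ≠ z a → u (s a) = z (s a) := by
    intro s hs e1 e2
    have sQ := (D.le1 s hs).1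
    have := fx (s a) ⟨s, sQ, rfl⟩ e1 e2
    rw [← D.cm' hs hv, va, S.cm s sQ, S.cm u uQ] at this
    rw [← this, S.z2, this]
  have s2Q := (D.le2 s₂ h₂).1
  have s1Q := (D.le1 s₁ h₁).1
  have j2 : u (s₂ a) = s₂ a := by rw [D.cm' hu h₂, ua]
  have j3 : v (s₂ a) = s₂ a := u.injective (by rw [fx _ ⟨s₂, s2Q, rfl⟩ m₂.1 m₂.2, j2])
  have j4 : u (v (s₁ (s₂ a))) = z (s₁ (s₂ a)) := by
    rw [← D.cm' h₁ hv, j3, D.cm' h₁ h₂, D.cm' hu h₂, j1 s₁ h₁ m₁.1 m₁.2, S.cm s₂ s2Q]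
  have j5 : s₁ (s₂ a) = a ∨ s₁ (s₂ a) = z a := by
    by_contra hn; push Not at hn
    rw [fx (s₁ (s₂ a)) ⟨s₁ * s₂, mul_mem s1Q s2Q, rfl⟩ hn.1 hn.2] at j4
    exact zne (s₁ * s₂) (mul_mem s1Q s2Q) j4.symm
  have j6 := j1 s₁⁻¹ (inv_mem h₁) (fun h => m₁.1 (by rw [Perm.inv_eq_iff_eq] at h; exact h.symm))
    (fun h => m₁.2 (by
      rw [Perm.inv_eq_iff_eq, S.cm s₁ s1Q] at h
      rw [← S.z2 (s₁ a), ← h]))
  apply zne s₁⁻¹ (inv_mem s1Q)
  rw [← j6]
  refine S.fix_of uQ (c := s₂ a) ?_ j2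
  rcases j5 with h | h
  · left; rw [Perm.eq_inv_iff_eq, h]
  · right; rw [← S.cm _ (inv_mem s1Q), Perm.eq_inv_iff_eq, h]

theorem St.dich (S : St Q z) (D : Dc Q S₁ S₂) {a k : α} (ha : z a ≠ a) (hk : ¬ Orb Q a k)
    (hk' : z k ≠ k) : Fx S₁ z a ∨ Fx S₂ z a := by
  by_contra hn
  simp only [Fx, not_or, not_forall] at hn
  obtain ⟨⟨s₁, h₁, m₁⟩, s₂, h₂, m₂⟩ := hn
  obtain ⟨u, hu, v, hv, ht⟩ := D.dec _ (S.sw2 ha hk').1 (S.sw2 ha hk').2
  have ak : a ≠ k := by rintro rfl; exact hk (Orb.refl _)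
  have ak' : a ≠ z k := by rintro rfl; exact hk (S.orbz k).symm
  have e : u (v a) = z a := by rw [← Perm.mul_apply, ← ht, S.t_self ak ak']
  have vQ := (D.le2 v hv).1
  have uQ := (D.le1 u hu).1
  have hva : v a = a ∨ v a = z a := by
    by_contra hn; push Not at hn
    have := S.t_fix (k := k) hn.1 hn.2 (fun h => hk ⟨v, vQ, h⟩)
      (fun h => hk (Orb.trans ⟨v, vQ, h⟩ (S.orbz k).symm))
    rw [ht, Perm.mul_apply, D.cm' hu hv, e] at this
    exact ha (v.injective this)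
  rcases hva with h | h
  · rw [h] at e
    exact S.dich_aux D.symm ha hk hv hu (by rw [ht, D.cm u hu v hv]) h e h₂ h₁ m₂ m₁
  · rw [h, S.cm u uQ] at e
    exact S.dich_aux D ha hk hu hv ht (z.injective e) h h₁ h₂ m₁ m₂

theorem St.fx_blk (S : St Q z) (D : Dc Q S₁ S₂) {b c : α} (h : c = b ∨ c = z b)
    (hc : Fx S₂ z c) : Fx S₂ z b := by
  rcases h with rfl | rfl
  · exact hc
  · intro s hs
    have := hc s hs
    rw [S.cm s (D.le2 s hs).1] at this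
    exact this.imp (fun h => z.injective h) (fun h => z.injective h)

theorem St.fx_inv (S : St Q z) (D : Dc Q S₁ S₂) :
    ∀ q ∈ Q, ∀ a, Fx S₂ z a → Fx S₂ z (q a) := by
  intro q hq a ha
  by_cases hz : z a = a
  · rwa [S.fix hz hq]
  obtain ⟨g, hg, hs, e⟩ := S.even_orb hz ⟨q, hq, rfl⟩
  refine S.fx_blk D e ?_
  obtain ⟨u, hu, v, hv, rfl⟩ := D.dec g hg hs
  have uQ := (D.le1 u hu).1
  have : Fx S₂ z (u a) := by
    intro s hs
    rw [← D.cm' hu hs, ← S.cm u uQ]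
    exact (ha s hs).imp (congrArg u) (congrArg u)
  refine S.fx_blk D ?_ this
  rw [Perm.mul_apply]
  rcases ha v hv with h | h <;> rw [h]
  · exact Or.inl rfl
  · right; rw [S.cm u uQ, S.z2]

theorem St.fx_unif (S : St Q z) (D : Dc Q S₁ S₂) {a : α} (ha : Fx S₂ z a) {s : Perm α}
    (hs : s ∈ S₂) (h : s a = a) {q : Perm α} (hq : q ∈ Q) : s (q a) = q a := by
  by_cases hz : z a = a
  · rwa [S.fix hz hq]
  have sQ := (D.le2 s hs).1
  obtain ⟨g, hg, hs', e⟩ := S.even_orb hz ⟨q, hq, rfl⟩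
  refine S.fix_of sQ e ?_
  obtain ⟨u, hu, v, hv, rfl⟩ := D.dec g hg hs'
  rw [Perm.mul_apply, ← D.cm' hu hs]
  congr 1
  rcases ha v hv with h' | h' <;> rw [h']
  · exact h
  · rw [S.cm s sQ, h]

theorem St.res_even (S : St Q z) (D : Dc Q S₁ S₂) (hr : ∀ a, ¬ Big Q z a → z a = a)
    {p : α → Prop} (hp : ∀ q ∈ Q, ∀ a, p a → p (q a)) (hf : ∀ a, p a → Fx S₂ z a) {s : Perm α}
    (hs : s ∈ S₂) : sign (res p s) = 1 := by
  have sQ := (D.le2 s hs).1
  refine S.sign_one (fun a => ?_) (S.res_mem hp sQ) (fun a ha => ?_) (fun q hq a ha => ?_)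
  · by_cases h : p a
    · rw [res_pos hp sQ h]; exact hf a h s hs
    · exact Or.inl (res_neg hp sQ h)
  · by_contra hb; exact ha (S.fix (hr a hb) (S.res_mem hp sQ))
  · by_cases h : p a
    · rw [res_pos hp sQ h] at ha
      rw [res_pos hp sQ (hp q hq a h)]; exact S.fx_unif D (hf a h) hs ha hq
    · exact res_neg hp sQ (not_inv hp q hq a h)

theorem St.comm_sw (S : St Q z) {v : Perm α} (hv : v ∈ Q) {a : α} (h : v a = a ∨ v a = z a) :
    v * swap a (z a) * v⁻¹ = swap a (z a) := by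
  rw [← swap_apply_apply, S.cm v hv]
  rcases h with h | h <;> rw [h]
  rw [S.z2, swap_comm]

theorem St.pair_mem (S : St Q z) (D : Dc Q S₁ S₂) (hf : ∀ a, Fx S₂ z a) {a b k : α}
    (ha : z a ≠ a) (hk : ¬ Orb Q a k) (hk' : z k ≠ k) (hb : Orb Q a b) :
    swap a (z a) * swap b (z b) ∈ S₁ := by
  obtain ⟨q, hq, rfl⟩ := hb
  have hzk : ¬ Orb Q a (z k) := fun h => hk (h.trans (S.orbz k).symm)
  obtain ⟨g, hg, hs, e⟩ := S.even_of hk' (S.res_mem (Orb.inv a) hq)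
  have ga : g a = q a := by
    rcases e with rfl | rfl
    · exact res_pos (Orb.inv a) hq (Orb.refl a)
    · rw [Perm.mul_apply, swap_apply_of_ne_of_ne (by rintro rfl; exact hk (Orb.refl _))
        (by rintro rfl; exact hzk (Orb.refl _)), res_pos (Orb.inv a) hq (Orb.refl a)]
  have gk : g k = k ∨ g k = z k := by
    rcases e with rfl | rfl
    · exact Or.inl (res_neg (Orb.inv a) hq hk)
    · right; rw [Perm.mul_apply, swap_apply_left, res_neg (Orb.inv a) hq hzk]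
  obtain ⟨u, hu, v, hv, eg⟩ := D.dec g hg hs
  obtain ⟨u', hu', v', hv', et⟩ := D.dec _ (S.sw2 ha hk').1 (S.sw2 ha hk').2
  have vQ := (D.le2 v hv).1
  have e1 : g * (swap a (z a) * swap k (z k)) * g⁻¹ = swap (q a) (z (q a)) * swap k (z k) := by
    rw [← ga, ← S.cm g hg, swap_apply_apply]
    conv_rhs => rw [← S.comm_sw hg gk]
    group
  have e2 : v * (swap a (z a) * swap k (z k)) * v⁻¹ = swap a (z a) * swap k (z k) := by
    conv_rhs => rw [← S.comm_sw vQ (hf a v hv), ← S.comm_sw vQ (hf k v hv)]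
    group
  have e3 : g * (swap a (z a) * swap k (z k)) * g⁻¹ = u * u' * u⁻¹ * v' := by
    have : g * (swap a (z a) * swap k (z k)) * g⁻¹ =
        u * (v * (swap a (z a) * swap k (z k)) * v⁻¹) * u⁻¹ := by rw [eg]; group
    rw [this, e2, et, mul_assoc (u * u'), D.cm _ (inv_mem hu) _ hv']; group
  have e4 : swap a (z a) * swap (q a) (z (q a)) = u' * (u * u' * u⁻¹)⁻¹ := by
    have : swap a (z a) * swap (q a) (z (q a)) =
      (swap a (z a) * swap k (z k)) * (swap (q a) (z (q a)) * swap k (z k))⁻¹ := by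
      simp [mul_assoc]
    rw [this, ← e1, e3, et]; group
  rw [e4]
  exact mul_mem hu' (inv_mem (mul_mem (mul_mem hu hu') (inv_mem hu)))

theorem St.all_mem (S : St Q z) (D : Dc Q S₁ S₂) (hf : ∀ a, Fx S₂ z a)
    (hk : ∀ a, ∃ k, ¬ Orb Q a k ∧ z k ≠ k) (n : ℕ) : ∀ r ∈ Q, (∀ a, r a = a ∨ r a = z a) →
    (∀ a, sign (res (Orb Q a) r) = 1) → r.support.card = n → r ∈ S₁ := by
  induction n using Nat.strong_induction_on with
  | _ n ih =>
  intro r hr h1 h2 hn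
  by_cases r1 : ∀ a, r a = a
  · rw [show r = 1 from Equiv.ext r1]; exact one_mem _
  push Not at r1
  obtain ⟨a, ha⟩ := r1
  have ra : r a = z a := (h1 a).resolve_left ha
  have za : z a ≠ a := by rwa [← ra]
  obtain ⟨b, ob, hb, b1, b2⟩ : ∃ b, Orb Q a b ∧ r b ≠ b ∧ b ≠ a ∧ b ≠ z a := by
    by_contra hh
    push Not at hh
    have : res (Orb Q a) r = swap a (z a) := by
      ext c
      by_cases c1 : c = a
      · rw [c1, res_pos (Orb.inv a) hr (Orb.refl a), ra]; simp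
      by_cases c2 : c = z a
      · rw [c2, res_pos (Orb.inv a) hr (S.orbz a), S.cm r hr, ra, S.z2]; simp
      rw [swap_apply_of_ne_of_ne c1 c2]
      by_cases oc : Orb Q a c
      · rw [res_pos (Orb.inv a) hr oc]; by_contra h; exact c2 (hh c oc h c1)
      · exact res_neg (Orb.inv a) hr oc
    have h3 := h2 a
    rw [this, sign_swap za.symm] at h3
    simp at h3
  have rb : r b = z b := (h1 b).resolve_left hb
  have zb : z b ≠ b := by rwa [← rb]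
  have b3 : a ≠ z b := fun h => b2 (by rw [h, S.z2])
  obtain ⟨k, k1, k2⟩ := hk a
  have hm := S.pair_mem D hf za k1 k2 ob
  set t := swap a (z a) * swap b (z b) with ht
  have tQ : t ∈ Q := (S.sw2 za zb).1
  have ta : t a = z a := S.t_self b1.symm b3
  have tb : t b = z b := by
    rw [ht, Perm.mul_apply, swap_apply_left, swap_apply_of_ne_of_ne b3.symm
      (fun h => b1 (z.injective h))]
  have key : ∀ c, (r * t) c = c ∨ ((r * t) c = r c ∧ c ≠ a) := by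
    intro c
    by_cases c1 : c = a
    · left; rw [c1, Perm.mul_apply, ta, S.cm r hr, ra, S.z2]
    by_cases c2 : c = z a
    · left; rw [c2, Perm.mul_apply, S.cm t tQ, ta, S.z2, ra]
    by_cases c3 : c = b
    · left; rw [c3, Perm.mul_apply, tb, S.cm r hr, rb, S.z2]
    by_cases c4 : c = z b
    · left; rw [c4, Perm.mul_apply, S.cm t tQ, tb, S.z2, rb]
    right; exact ⟨by rw [Perm.mul_apply, S.t_fix c1 c2 c3 c4], c1⟩
  have := ih (r * t).support.card ?_ (r * t) (mul_mem hr tQ) (fun c => ?_) (fun c => ?_) rfl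
  · simpa using mul_mem this (inv_mem hm)
  · rw [← hn]
    apply Finset.card_lt_card
    refine ⟨fun c hc => ?_, fun h => ?_⟩
    · rw [mem_support] at hc ⊢
      rcases key c with h | h
      · exact absurd h hc
      · rwa [← h.1]
    · have := mem_support.1 (h (mem_support.2 ha))
      rcases key a with h | h
      · exact this h
      · exact h.2 rfl
  · rcases key c with h | h
    · exact Or.inl h
    · rw [h.1]; exact h1 c
  · rw [res_mul (Orb.inv c) hr tQ, Perm.sign_mul, h2 c, one_mul, ht,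
      res_mul (Orb.inv c) (S.sw a) (S.sw b)]
    by_cases hc : Orb Q c a
    · rw [S.res_sw_pos (Orb.inv c) hc, S.res_sw_pos (Orb.inv c) (hc.trans ob)]
      exact (S.sw2 za zb).2
    · rw [S.res_sw_neg (Orb.inv c) hc, S.res_sw_neg (Orb.inv c) (fun h => hc (h.trans ob.symm))]
      simp

theorem St.bot_of (S : St Q z) (D : Dc Q S₁ S₂) (hr : ∀ a, ¬ Big Q z a → z a = a)
    (hk : ∀ a, ∃ k, ¬ Orb Q a k ∧ z k ≠ k) (hf : ∀ a, Fx S₂ z a) : S₂ = ⊥ := by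
  refine (Subgroup.eq_bot_iff_forall _).2 fun s hs => D.inf s ?_ hs
  exact S.all_mem D hf hk _ s (D.le2 s hs).1 (fun a => hf a s hs)
    (fun a => S.res_even D hr (Orb.inv a) (fun b _ => hf b) hs) rfl

/-- Case II, several orbits -/
theorem St.caseIII (S : St Q z) (D : Dc Q S₁ S₂) (h1 : S₁ ≠ ⊥) (h2 : S₂ ≠ ⊥)
    (hr : ∀ a, ¬ Big Q z a → z a = a) {a₀ b₀ : α} (ha : Big Q z a₀) (hb : Big Q z b₀)
    (hab : ¬ Orb Q a₀ b₀) : False := by
  have hk : ∀ a, ∃ k, ¬ Orb Q a k ∧ z k ≠ k := by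
    intro a
    by_cases h : Orb Q a a₀
    · exact ⟨b₀, fun h' => hab (h.symm.trans h'), S.big_ne hb⟩
    · exact ⟨a₀, h, S.big_ne ha⟩
  have fxf : ∀ a, z a = a → Fx S₁ z a ∧ Fx S₂ z a := fun a h =>
    ⟨fun s hs => Or.inl (S.fix h (D.le1 s hs).1), fun s hs => Or.inl (S.fix h (D.le2 s hs).1)⟩
  have dich : ∀ a, ¬ Fx S₂ z a → Fx S₁ z a := by
    intro a h
    obtain ⟨k, k1, k2⟩ := hk a
    exact (S.dich D (fun hz => h (fxf a hz).2) k1 k2).resolve_right h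
  obtain ⟨k, k1⟩ : ∃ k, ¬ Fx S₂ z k := by
    by_contra h; push Not at h; exact h2 (S.bot_of D hr hk h)
  obtain ⟨a, a1⟩ : ∃ a, ¬ Fx S₁ z a := by
    by_contra h; push Not at h; exact h1 (S.bot_of D.symm hr hk h)
  have a2 : Fx S₂ z a := by by_contra h; exact a1 (dich a h)
  have za : z a ≠ a := fun h => a1 (fxf a h).1
  have zk : z k ≠ k := fun h => k1 (fxf k h).2
  have hp := S.fx_inv D
  obtain ⟨u, hu, v, hv, e⟩ := D.dec _ (S.sw2 za zk).1 (S.sw2 za zk).2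
  have e1 := congrArg (fun x => sign (res (Fx S₂ z) x)) e
  have uQ := (D.le1 u hu).1
  rw [res_mul hp (S.sw a) (S.sw k), S.res_sw_pos hp a2, S.res_sw_neg hp k1, mul_one,
    sign_swap za.symm, res_mul hp uQ (D.le2 v hv).1, Perm.sign_mul,
    S.res_even D hr hp (fun _ h => h) hv, mul_one] at e1
  have e2 := (D.le1 u hu).2
  rw [res_split hp uQ, Perm.sign_mul, S.res_even D.symm hr (not_inv hp) dich hu, mul_one, ← e1] at e2
  simp at e2

theorem St.decomp (S : St Q z) {u : α} (hu : z u ≠ u) (hu' : ¬ Big Q z u) {a₀ b₀ : α}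
    (ha : Big Q z a₀) (hb : Big Q z b₀) (hab : ¬ Orb Q a₀ b₀) :
    ∃ S₁ S₂, S₁ ≠ ⊥ ∧ S₂ ≠ ⊥ ∧ Dc Q S₁ S₂ := by
  have hu'' : ¬ Big Q z (z u) := by rwa [S.bigz]
  have o1 : ¬ Orb Q a₀ u := fun h => hu' (S.big_orb ha h)
  have o2 : ¬ Orb Q a₀ (z u) := fun h => hu'' (S.big_orb ha h)
  have blk : ∀ q ∈ Q, q u = u ∨ q u = z u := by
    intro q hq; by_contra hn; push Not at hn; exact hu' ⟨q, hq, hn⟩
  have hp : ∀ q ∈ Q, ∀ a, (a = u ∨ a = z u) → (q a = u ∨ q a = z u) := by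
    rintro q hq a (rfl | rfl)
    · exact blk q hq
    · rw [S.cm q hq]
      rcases blk q hq with h | h <;> rw [h]
      · exact Or.inr rfl
      · exact Or.inl (S.z2 u)
  have m1 : ∀ x, x ∈ Q ⊓ alternatingGroup α ⊓ fixingSubgroup (Perm α)
      {a | ¬ Orb Q a₀ a ∧ a ≠ u ∧ a ≠ z u} ↔ (x ∈ Q ∧ sign x = 1) ∧
      ∀ a, ¬ Orb Q a₀ a → a ≠ u → a ≠ z u → x a = a := by
    intro x; simp [mem_fixingSubgroup_iff]
  have m2 : ∀ x, x ∈ Q ⊓ alternatingGroup α ⊓ fixingSubgroup (Perm α) {a | Orb Q a₀ a} ↔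
      (x ∈ Q ∧ sign x = 1) ∧ ∀ a, Orb Q a₀ a → x a = a := by
    intro x; simp [mem_fixingSubgroup_iff]
  have ne1 : ∀ a, Big Q z a → swap a (z a) * swap u (z u) ≠ 1 := by
    intro a h e
    have := S.t_self (a := a) (k := u) (by rintro rfl; exact hu' h) (by rintro rfl; exact hu'' h)
    rw [e] at this
    exact S.big_ne h this.symm
  refine ⟨_, _, ?_, ?_, fun x hx => ((m1 x).1 hx).1, fun x hx => ((m2 x).1 hx).1, ?_, ?_, ?_⟩
  · refine fun h => ne1 a₀ ha ((Subgroup.eq_bot_iff_forall _).1 h _ ((m1 _).2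
      ⟨S.sw2 (S.big_ne ha) hu, fun a a1 a2 a3 => S.t_fix ?_ ?_ a2 a3⟩))
    · rintro rfl; exact a1 (Orb.refl _)
    · rintro rfl; exact a1 (S.orbz _)
  · refine fun h => ne1 b₀ hb ((Subgroup.eq_bot_iff_forall _).1 h _ ((m2 _).2
      ⟨S.sw2 (S.big_ne hb) hu, fun a a1 => S.t_fix ?_ ?_ ?_ ?_⟩))
    · rintro rfl; exact hab a1
    · rintro rfl; exact hab (a1.trans (S.orbz _).symm)
    · rintro rfl; exact o1 a1
    · rintro rfl; exact o2 a1
  · intro x hx y hy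
    obtain ⟨⟨xQ, -⟩, hx⟩ := (m1 x).1 hx
    obtain ⟨⟨yQ, -⟩, hy⟩ := (m2 y).1 hy
    ext a
    simp only [Perm.mul_apply]
    by_cases h : Orb Q a₀ a
    · rw [hy a h, hy _ (Orb.inv _ x xQ a h)]
    by_cases h' : a = u ∨ a = z u
    · rcases h' with rfl | rfl <;> rcases blk x xQ with e | e <;> rcases blk y yQ with f | f <;>
        simp only [S.cm x xQ, S.cm y yQ, e, f]
    · have := not_inv hp y yQ a h'
      push Not at h' this
      rw [hx a h h'.1 h'.2, hx _ (not_inv (Orb.inv a₀) y yQ a h) this.1 this.2]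
  · intro x hx hy
    obtain ⟨⟨xQ, xs⟩, hx⟩ := (m1 x).1 hx
    obtain ⟨-, hy⟩ := (m2 x).1 hy
    refine S.triv hu xQ xs (fun a a1 a2 => ?_) hu'
    by_cases h : Orb Q a₀ a
    · exact hy a h
    · exact hx a h a1 a2
  · intro x xQ xs
    obtain ⟨g, hg, hs, e⟩ := S.even_of hu (S.res_mem (Orb.inv a₀) xQ)
    have eg : ∀ a, a ≠ u → a ≠ z u → g a = res (Orb Q a₀) x a := by
      intro a a1 a2
      rcases e with rfl | rfl
      · rfl
      · rw [Perm.mul_apply, swap_apply_of_ne_of_ne a1 a2]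
    refine ⟨g, (m1 g).2 ⟨⟨hg, hs⟩, fun a a0 a1 a2 => ?_⟩, g⁻¹ * x, (m2 _).2
      ⟨⟨mul_mem (inv_mem hg) xQ, by simp [hs, xs]⟩, fun a a0 => ?_⟩, by simp⟩
    · rw [eg a a1 a2, res_neg (Orb.inv a₀) xQ a0]
    · rw [Perm.mul_apply, Perm.inv_eq_iff_eq, eg a (by rintro rfl; exact o1 a0)
        (by rintro rfl; exact o2 a0), res_pos (Orb.inv a₀) xQ a0]

end Cfsg.Agent.SylAn
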