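import Mathlib

set_option autoImplicit false
set_option linter.unusedVariables false
set_option linter.unusedSectionVars false
set_option linter.unusedSimpArgs false
set_option linter.style.haveILetI false

namespace Cfsg.Agent.SylAn
open Equiv Equiv.Perm

variable {α : Type*} [Fintype α] [DecidableEq α]

structure St (Q : Subgroup (Perm α)) (z : Perm α) : Prop where
  pg : IsPGroup 2 Q
  z2 : ∀ a, z (z a) = a
  sw : ∀ a, swap a (z a) ∈ Q
  cm : ∀ q ∈ Q, ∀ a, q (z a) = z (q a)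
  fx : ∀ a b, z a = a → z b = b → a = b
  gl : ∀ (p : α → Prop) (x : Perm α), (∀ q ∈ Q, ∀ a, p a → p (q a)) → ∀ q₁ ∈ Q, ∀ q₂ ∈ Q,
    (∀ a, p a → x a = q₁ a) → (∀ a, ¬ p a → x a = q₂ a) → x ∈ Q

theorem no_three {Q : Subgroup (Perm α)} (hQ : IsPGroup 2 Q) {a b c : α} (ab : a ≠ b) (ac : a ≠ c)
    (bc : b ≠ c) (h1 : swap a b ∈ Q) (h2 : swap a c ∈ Q) : False := by
  obtain ⟨k, hk⟩ := IsPGroup.iff_orderOf.1 hQ ⟨_, Q.mul_mem h1 h2⟩
  rw [Subgroup.orderOf_mk, (isThreeCycle_swap_mul_swap_same ab ac bc).orderOf] at hk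
  cases k with
  | zero => simp at hk
  | succ k => rw [pow_succ] at hk; omega

theorem inv_iff {Q : Subgroup (Perm α)} {p : α → Prop} (h : ∀ q ∈ Q, ∀ a, p a → p (q a))
    {q : Perm α} (hq : q ∈ Q) (a : α) : p (q a) ↔ p a :=
  ⟨fun hh => by simpa using h _ (Q.inv_mem hq) _ hh, h q hq a⟩

theorem glue (Q : Sylow 2 (Perm α)) (p : α → Prop) (x : Perm α)
    (hp : ∀ q ∈ (Q : Subgroup (Perm α)), ∀ a, p a → p (q a)) (q₁ : Perm α)
    (h₁ : q₁ ∈ (Q : Subgroup (Perm α))) (q₂ : Perm α) (h₂ : q₂ ∈ (Q : Subgroup (Perm α)))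
    (e₁ : ∀ a, p a → x a = q₁ a) (e₂ : ∀ a, ¬ p a → x a = q₂ a) : x ∈ (Q : Subgroup (Perm α)) := by
  let R : Subgroup (Perm α) :=
    { carrier := {x | ∃ q₁ ∈ (Q : Subgroup (Perm α)), ∃ q₂ ∈ (Q : Subgroup (Perm α)),
        (∀ a, p a → x a = q₁ a) ∧ (∀ a, ¬ p a → x a = q₂ a)}
      one_mem' := ⟨1, one_mem _, 1, one_mem _, fun _ _ => rfl, fun _ _ => rfl⟩
      mul_mem' := by
        rintro x y ⟨a1, ha1, a2, ha2, e1, e2⟩ ⟨b1, hb1, b2, hb2, f1, f2⟩
        refine ⟨a1 * b1, mul_mem ha1 hb1, a2 * b2, mul_mem ha2 hb2, fun a h => ?_, fun a h => ?_⟩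
        · rw [Perm.mul_apply, f1 a h, e1 _ (hp _ hb1 a h)]; rfl
        · rw [Perm.mul_apply, f2 a h, e2 _ (by rwa [inv_iff hp hb2])]; rfl
      inv_mem' := by
        rintro x ⟨a1, ha1, a2, ha2, e1, e2⟩
        refine ⟨a1⁻¹, inv_mem ha1, a2⁻¹, inv_mem ha2, fun a h => ?_, fun a h => ?_⟩
        · rw [Perm.inv_eq_iff_eq, e1 _ (hp _ (inv_mem ha1) a h)]; simp
        · rw [Perm.inv_eq_iff_eq, e2 _ (by rwa [inv_iff hp (inv_mem ha2)])]; simp }
  have hR : IsPGroup 2 R := by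
    rintro ⟨x, a1, ha1, a2, ha2, e1, e2⟩
    obtain ⟨k1, hk1⟩ := Q.isPGroup' ⟨a1, ha1⟩
    obtain ⟨k2, hk2⟩ := Q.isPGroup' ⟨a2, ha2⟩
    have hk1' : a1 ^ 2 ^ k1 = 1 := congrArg Subtype.val hk1
    have hk2' : a2 ^ 2 ^ k2 = 1 := congrArg Subtype.val hk2
    have g1 : ∀ n a, p a → (x ^ n) a = (a1 ^ n) a := by
      intro n a h
      induction n with
      | zero => rfl
      | succ n ih => rw [pow_succ', pow_succ', Perm.mul_apply, Perm.mul_apply, ih,
          e1 _ (hp _ (pow_mem ha1 n) a h)]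
    have g2 : ∀ n a, ¬ p a → (x ^ n) a = (a2 ^ n) a := by
      intro n a h
      induction n with
      | zero => rfl
      | succ n ih => rw [pow_succ', pow_succ', Perm.mul_apply, Perm.mul_apply, ih,
          e2 _ (by rwa [inv_iff hp (pow_mem ha2 n)])]
    refine ⟨k1 + k2, Subtype.ext ?_⟩
    ext a
    change (x ^ 2 ^ (k1 + k2)) a = a
    by_cases h : p a
    · rw [g1 _ a h, pow_add, pow_mul, hk1']; simp
    · rw [g2 _ a h, add_comm, pow_add, pow_mul, hk2']; simp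
  have := Q.3 hR (fun q hq => ⟨q, hq, q, hq, fun _ _ => rfl, fun _ _ => rfl⟩)
  rw [← this]
  exact ⟨q₁, h₁, q₂, h₂, e₁, e₂⟩

theorem conj_into (Q : Sylow 2 (Perm α)) {T : Subgroup (Perm α)} (hT : IsPGroup 2 T) :
    ∃ h : Perm α, ∀ t ∈ T, h * t * h⁻¹ ∈ (Q : Subgroup (Perm α)) := by
  obtain ⟨Q', hQ'⟩ := hT.exists_le_sylow
  obtain ⟨h, rfl⟩ := MulAction.exists_smul_eq (Perm α) Q' Q
  exact ⟨h, fun t ht => by
    rw [Sylow.coe_subgroup_smul]
    exact Subgroup.smul_mem_pointwise_smul t (MulAut.conj h) _ (hQ' ht)⟩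

theorem exists_cyc (c k j : ℕ) [NeZero c] (h : Fintype.card α = k * c + j) :
    ∃ (g : Perm α) (e : (Fin k × ZMod c) ⊕ Fin j ≃ α), g ^ c = 1 ∧
      (∀ i x, g (e (Sum.inl (i, x))) = e (Sum.inl (i, x + 1))) ∧ ∀ i, g (e (Sum.inr i)) = e (Sum.inr i) := by
  let e : (Fin k × ZMod c) ⊕ Fin j ≃ α := Fintype.equivOfCardEq (by simp [h])
  let g := e.permCongr (Equiv.sumCongr (Equiv.prodCongr (Equiv.refl _) (Equiv.addRight 1))
    (Equiv.refl _))
  have h1 : ∀ i x, g (e (Sum.inl (i, x))) = e (Sum.inl (i, x + 1)) := by intro i x; simp [g]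
  have h2 : ∀ i, g (e (Sum.inr i)) = e (Sum.inr i) := by intro i; simp [g]
  refine ⟨g, e, ?_, h1, h2⟩
  have h3 : ∀ (n : ℕ) i x, (g ^ n) (e (Sum.inl (i, x))) = e (Sum.inl (i, x + n)) := by
    intro n i x
    induction n with
    | zero => simp
    | succ n ih => rw [pow_succ', Perm.mul_apply, ih, h1]; push_cast; rw [add_assoc]
  ext a
  obtain ⟨a, rfl⟩ := e.surjective a
  rcases a with ⟨i, x⟩ | i
  · rw [h3]; simp
  · exact Perm.pow_apply_eq_self_of_apply_eq_self (h2 i) c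

theorem exists_cyc_mem (Q : Sylow 2 (Perm α)) (r k j : ℕ) (h : Fintype.card α = k * 2 ^ r + j) :
    ∃ g ∈ (Q : Subgroup (Perm α)), ∃ e : Fin k × ZMod (2 ^ r) → α, Function.Injective e ∧
      ∀ i x, g (e (i, x)) = e (i, x + 1) := by
  obtain ⟨g, e, h1, h2, -⟩ := exists_cyc (2 ^ r) k j h
  have hT : IsPGroup 2 (Subgroup.zpowers g) := by
    rintro ⟨_, n, rfl⟩
    exact ⟨r, Subtype.ext (by
      change (g ^ n) ^ 2 ^ r = 1
      rw [← zpow_natCast, ← zpow_mul, mul_comm, zpow_mul, zpow_natCast, h1, one_zpow])⟩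
  obtain ⟨h, hh⟩ := conj_into Q hT
  refine ⟨_, hh g (Subgroup.mem_zpowers g), fun u => h (e (Sum.inl u)),
    h.injective.comp (e.injective.comp Sum.inl_injective), fun i x => by simp [h2]⟩

theorem exists_st (Q : Sylow 2 (Perm α)) : ∃ z, St (Q : Subgroup (Perm α)) z := by
  obtain ⟨g, e, h1, h2, h3⟩ := exists_cyc (α := α) 2 (Fintype.card α / 2) (Fintype.card α % 2)
    (by omega)
  have g2 : ∀ a, g (g a) = a := fun a => by rw [← Perm.mul_apply, ← pow_two, h1]; rfl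
  have gf : ∀ a b, g a = a → g b = b → a = b := by
    have : ∀ a, g a = a → ∃ i, a = e (Sum.inr i) := by
      intro a ha
      obtain ⟨a, rfl⟩ := e.surjective a
      rcases a with ⟨i, x⟩ | i
      · rw [h2] at ha; simp at ha
      · exact ⟨i, rfl⟩
    intro a b ha hb
    obtain ⟨i, rfl⟩ := this a ha
    obtain ⟨j, rfl⟩ := this b hb
    congr 2; apply Fin.ext; omega
  let T : Subgroup (Perm α) :=
    { carrier := {x | ∀ a, x a = a ∨ x a = g a}
      one_mem' := fun a => Or.inl rfl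
      mul_mem' := by
        intro x y hx hy a
        rw [Perm.mul_apply]
        rcases hy a with h | h <;> rw [h]
        · exact hx a
        · rcases hx (g a) with h' | h' <;> rw [h']
          · exact Or.inr rfl
          · exact Or.inl (g2 a)
      inv_mem' := by
        intro x hx a
        rcases hx (x⁻¹ a) with h | h
        · left; simpa using h.symm
        · right; rw [← g2 (x⁻¹ a), ← h]; simp }
  have hT : IsPGroup 2 T := by
    rintro ⟨x, hx⟩
    refine ⟨1, Subtype.ext ?_⟩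
    ext a
    change (x ^ 2 ^ 1) a = a
    rw [pow_one, pow_two, Perm.mul_apply]
    rcases hx a with h | h
    · rw [h, h]
    · rcases hx (g a) with h' | h'
      · have := x.injective (h.trans h'.symm)
        rw [h, h', ← this]
      · rw [h, h', g2]
  obtain ⟨h, hh⟩ := conj_into Q hT
  have sw : ∀ a, swap a ((h * g * h⁻¹) a) ∈ (Q : Subgroup (Perm α)) := by
    intro a
    have := hh (swap (h⁻¹ a) (g (h⁻¹ a))) (fun b => by
      rw [swap_apply_def]; split_ifs with e1 e2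
      · right; rw [e1]
      · right; rw [e2, g2]
      · left; rfl)
    rw [← swap_apply_apply] at this
    simpa using this
  have z2 : ∀ a, (h * g * h⁻¹) ((h * g * h⁻¹) a) = a := by intro a; simp [g2]
  have fx : ∀ a b, (h * g * h⁻¹) a = a → (h * g * h⁻¹) b = b → a = b := by
    intro a b ha hb
    apply h⁻¹.injective
    apply gf <;> apply h.injective <;> simpa
  generalize h * g * h⁻¹ = z at sw z2 fx
  have uq : ∀ b c, b ≠ c → swap b c ∈ (Q : Subgroup (Perm α)) → c = z b := by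
    intro b c bc hs
    by_contra hne
    by_cases hb : z b = b
    · have hc : z c ≠ c := fun hc => bc (fx b c hb hc)
      exact no_three Q.isPGroup' bc.symm hc.symm (fun h => bc (by rw [← z2 c, ← h, hb]))
        (by rwa [swap_comm]) (sw c)
    · exact no_three Q.isPGroup' bc (Ne.symm hb) hne hs (sw b)
  have cm1 : ∀ q ∈ (Q : Subgroup (Perm α)), ∀ a, z a ≠ a → q (z a) = z (q a) := by
    intro q hq a ha
    apply uq _ _ (fun h => ha (q.injective h).symm)
    rw [swap_apply_apply]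
    exact mul_mem (mul_mem hq (sw a)) (inv_mem hq)
  refine ⟨z, Q.isPGroup', z2, sw, fun q hq a => ?_, fx, glue Q⟩
  by_cases ha : z a = a
  · by_contra hne
    rw [ha] at hne
    have := cm1 _ (inv_mem hq) (q a) (Ne.symm hne)
    simp only [Perm.coe_inv, symm_apply_apply, ha] at this
    exact hne ((Equiv.symm_apply_eq _).1 this).symm
  · exact cm1 q hq a ha

def Big (Q : Subgroup (Perm α)) (z : Perm α) (a : α) : Prop := ∃ q ∈ Q, q a ≠ a ∧ q a ≠ z a

def Orb (Q : Subgroup (Perm α)) (a b : α) : Prop := ∃ q ∈ Q, q a = b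

variable {Q : Subgroup (Perm α)} {z : Perm α}

theorem Orb.refl (a : α) : Orb Q a a := ⟨1, one_mem _, rfl⟩
theorem Orb.symm {a b : α} (h : Orb Q a b) : Orb Q b a := by
  obtain ⟨q, hq, rfl⟩ := h; exact ⟨q⁻¹, inv_mem hq, by simp⟩
theorem Orb.trans {a b c : α} (h : Orb Q a b) (h' : Orb Q b c) : Orb Q a c := by
  obtain ⟨q, hq, rfl⟩ := h; obtain ⟨r, hr, rfl⟩ := h'; exact ⟨r * q, mul_mem hr hq, rfl⟩
theorem Orb.inv (a : α) : ∀ q ∈ Q, ∀ b, Orb Q a b → Orb Q a (q b) :=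
  fun q hq b h => h.trans ⟨q, hq, rfl⟩
theorem St.orbz (S : St Q z) (a : α) : Orb Q a (z a) := ⟨_, S.sw a, by simp⟩

theorem St.big_inv (S : St Q z) : ∀ q ∈ Q, ∀ a, Big Q z a → Big Q z (q a) := by
  rintro q hq a ⟨r, hr, h1, h2⟩
  refine ⟨q * r * q⁻¹, mul_mem (mul_mem hq hr) (inv_mem hq), ?_, ?_⟩
  · simpa using h1
  · rw [← S.cm q hq]; simpa using h2

theorem St.big_orb (S : St Q z) {a b : α} (h : Big Q z a) (h' : Orb Q a b) : Big Q z b := by
  obtain ⟨q, hq, rfl⟩ := h'; exact S.big_inv q hq a h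

theorem St.fix (S : St Q z) {a : α} (ha : z a = a) {q : Perm α} (hq : q ∈ Q) : q a = a :=
  S.fx _ _ (by rw [← S.cm q hq, ha]) ha

theorem St.big_ne (S : St Q z) {a : α} (h : Big Q z a) : z a ≠ a := by
  obtain ⟨q, hq, h1, -⟩ := h
  exact fun ha => h1 (S.fix ha hq)

theorem St.orb_card (S : St Q z) (a : α) :
    ∃ r, Nat.card {b // Orb Q a b} = 2 ^ r := by
  obtain ⟨r, hr⟩ := S.pg.card_orbit a
  refine ⟨r, ?_⟩
  rw [← hr]
  refine Nat.card_congr (Equiv.subtypeEquivRight fun b => ?_)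
  exact ⟨fun ⟨q, hq, e⟩ => ⟨⟨q, hq⟩, e⟩, fun ⟨q, e⟩ => ⟨q, q.2, e⟩⟩

open Classical in
theorem St.four_dvd (S : St Q z) (B : Finset α) (hB : ∀ q ∈ Q, ∀ a ∈ B, q a ∈ B)
    (hb : ∀ a ∈ B, Big Q z a) : 4 ∣ B.card := by
  let f : α → Finset α := fun a => Finset.univ.filter (Orb Q a)
  rw [Finset.card_eq_sum_card_fiberwise (f := f) (t := B.image f)
    (fun a ha => Finset.mem_coe.2 (Finset.mem_image_of_mem f ha))]
  refine Finset.dvd_sum fun s hs => ?_
  obtain ⟨a, ha, rfl⟩ := Finset.mem_image.1 hs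
  have e : B.filter (fun b => f b = f a) = f a := by
    ext b
    simp only [f, Finset.mem_filter, Finset.mem_univ, true_and]
    constructor
    · rintro ⟨-, h⟩
      have : b ∈ Finset.univ.filter (Orb Q b) := by simp [Orb.refl]
      rw [h] at this; simpa using this
    · intro h
      refine ⟨by obtain ⟨q, hq, rfl⟩ := h; exact hB q hq a ha, ?_⟩
      ext c; simp only [Finset.mem_filter, Finset.mem_univ, true_and]
      exact ⟨h.trans, h.symm.trans⟩
  rw [e]
  obtain ⟨r, hr⟩ := S.orb_card a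
  rw [Nat.card_eq_fintype_card, Fintype.card_subtype] at hr
  change (f a).card = _ at hr
  obtain ⟨q, hq, h1, h2⟩ := hb a ha
  have h3 : 2 < (f a).card := Finset.two_lt_card_iff.2 ⟨a, z a, q a, by simp [f, Orb.refl],
    by simp [f, S.orbz], by simp only [f, Finset.mem_filter, Finset.mem_univ, true_and]; exact ⟨q, hq, rfl⟩,
    (S.big_ne (hb a ha)).symm, h1.symm, h2.symm⟩
  rw [hr] at h3 ⊢
  match r, h3 with
  | 0, h3 => simp at h3
  | 1, h3 => simp at h3
  | r + 2, _ => exact ⟨2 ^ r, by ring⟩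

open Classical in
noncomputable def res (p : α → Prop) (x : Perm α) : Perm α :=
  if h : ∀ a, p (x a) ↔ p a then ofSubtype (x.subtypePerm h) else 1

theorem res_pos {p : α → Prop} (hp : ∀ q ∈ Q, ∀ a, p a → p (q a)) {x : Perm α} (hx : x ∈ Q)
    {a : α} (ha : p a) : res p x a = x a := by
  classical
  rw [res, dif_pos (inv_iff hp hx)]
  exact ofSubtype_subtypePerm_of_mem _ ha

theorem res_neg {p : α → Prop} (hp : ∀ q ∈ Q, ∀ a, p a → p (q a)) {x : Perm α} (hx : x ∈ Q)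
    {a : α} (ha : ¬ p a) : res p x a = a := by
  classical
  rw [res, dif_pos (inv_iff hp hx)]
  exact ofSubtype_subtypePerm_of_not_mem _ ha

theorem St.res_mem (S : St Q z) {p : α → Prop} (hp : ∀ q ∈ Q, ∀ a, p a → p (q a)) {x : Perm α}
    (hx : x ∈ Q) : res p x ∈ Q :=
  S.gl p _ hp x hx 1 (one_mem _) (fun a ha => res_pos hp hx ha) (fun a ha => res_neg hp hx ha)

theorem res_mul {p : α → Prop} (hp : ∀ q ∈ Q, ∀ a, p a → p (q a)) {x y : Perm α} (hx : x ∈ Q)
    (hy : y ∈ Q) : res p (x * y) = res p x * res p y := by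
  ext a
  by_cases ha : p a
  · rw [res_pos hp (mul_mem hx hy) ha, Perm.mul_apply, Perm.mul_apply, res_pos hp hy ha,
      res_pos hp hx (hp y hy a ha)]
  · rw [res_neg hp (mul_mem hx hy) ha, Perm.mul_apply, res_neg hp hy ha, res_neg hp hx ha]

theorem not_inv {p : α → Prop} (hp : ∀ q ∈ Q, ∀ a, p a → p (q a)) :
    ∀ q ∈ Q, ∀ a, ¬ p a → ¬ p (q a) := fun q hq a ha => by rwa [inv_iff hp hq]

theorem res_split {p : α → Prop} (hp : ∀ q ∈ Q, ∀ a, p a → p (q a)) {x : Perm α} (hx : x ∈ Q) :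
    x = res p x * res (fun a => ¬ p a) x := by
  ext a
  by_cases ha : p a
  · rw [Perm.mul_apply, res_neg (not_inv hp) hx (not_not.2 ha), res_pos hp hx ha]
  · rw [Perm.mul_apply, res_pos (not_inv hp) hx ha, res_neg hp hx (not_inv hp x hx a ha)]

theorem St.res_sw_pos (S : St Q z) {p : α → Prop} (hp : ∀ q ∈ Q, ∀ a, p a → p (q a)) {a : α}
    (ha : p a) : res p (swap a (z a)) = swap a (z a) := by
  have hz : p (z a) := by simpa using hp _ (S.sw a) a ha
  ext b
  by_cases hb : p b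
  · exact res_pos hp (S.sw a) hb
  · rw [res_neg hp (S.sw a) hb, swap_apply_of_ne_of_ne (by rintro rfl; exact hb ha)
      (by rintro rfl; exact hb hz)]

theorem St.res_sw_neg (S : St Q z) {p : α → Prop} (hp : ∀ q ∈ Q, ∀ a, p a → p (q a)) {a : α}
    (ha : ¬ p a) : res p (swap a (z a)) = 1 := by
  have hz : ¬ p (z a) := by simpa using not_inv hp _ (S.sw a) a ha
  ext b
  by_cases hb : p b
  · rw [res_pos hp (S.sw a) hb, swap_apply_of_ne_of_ne (by rintro rfl; exact ha hb)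
      (by rintro rfl; exact hz hb)]; rfl
  · exact res_neg hp (S.sw a) hb

theorem St.sign_one (S : St Q z) {r : Perm α} (h1 : ∀ a, r a = a ∨ r a = z a) (hr : r ∈ Q)
    (h2 : ∀ a, r a ≠ a → Big Q z a) (h3 : ∀ q ∈ Q, ∀ a, r a = a → r (q a) = q a) :
    sign r = 1 := by
  have r2 : r ^ 2 = 1 := by
    ext a
    rw [pow_two, Perm.mul_apply]
    rcases h1 a with h | h
    · rw [h, h]; rfl
    · rw [h, S.cm r hr, h, S.z2]; rfl
  have h4 := S.four_dvd r.support (fun q hq a ha => by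
    rw [mem_support] at ha ⊢
    intro h; apply ha; simpa using h3 _ (inv_mem hq) _ h) (fun a ha => h2 a (mem_support.1 ha))
  rw [sign_of_pow_two_eq_one r2, card_fixedPoints]
  obtain ⟨k, hk⟩ := h4
  have := Finset.card_le_univ r.support
  rw [sum_cycleType, hk, show (Fintype.card α - (Fintype.card α - 4 * k)) / 2 = 2 * k by omega, pow_mul]
  simp

end Cfsg.Agent.SylAn
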